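import Groth.Agent.Pi1.H391.Stmts2
import Groth.Agent.Pi1.H272.LazPerm
import Groth.Agent.Hensel.LazardPerm
import Groth.Agent.Desc.NormalSmooth
import Mathlib.RingTheory.TensorProduct.Quotient
import Mathlib.RingTheory.Filtration
import Mathlib.RingTheory.MvPolynomial.Localization
import Mathlib.RingTheory.Flat.TorsionFree

/-!
# Normality and coordinate divisors of a chart (G1 of the relative Abhyankar lemma S3689)

`R` local, ind-étale over `O[X_σ]`, `O` a normal local domain: `R` is a normal domain and each
coordinate in the maximal ideal generates a prime whose local ring is a discrete valuation ring.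
-/

set_option autoImplicit false

universe u

open TensorProduct IsLocalRing MvPolynomial

namespace Groth.Agent.Pi1.H521.NormalChart

open Groth.Agent.Hensel.Lazard (Laz)
open Groth.Agent.Pi1.H272.LazPerm

section Poly

variable (O : Type u) [CommRing O] {σ : Type} (j : σ)

open Classical in
/-- `X_j ↦ 0`. -/
noncomputable def kill : MvPolynomial σ O →ₐ[O] MvPolynomial {i : σ // i ≠ j} O :=
  aeval fun i => if h : i = j then 0 else X ⟨i, h⟩

theorem kill_X_self : kill O j (X j) = 0 := by
  simp [kill]

theorem kill_X (i : {i : σ // i ≠ j}) : kill O j (X i.1) = X i := by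
  simp [kill, i.2]

theorem kill_rename (q : MvPolynomial {i : σ // i ≠ j} O) :
    kill O j (rename Subtype.val q) = q := by
  have : (kill O j).comp (rename Subtype.val) = AlgHom.id O _ := by
    ext i : 1
    rw [AlgHom.comp_apply, rename_X, kill_X, AlgHom.id_apply]
  exact congr($this q)

theorem kill_surjective : Function.Surjective (kill O j) :=
  fun q => ⟨rename Subtype.val q, kill_rename O j q⟩

theorem ker_kill : RingHom.ker (kill O j) = Ideal.span {X j} := by
  apply le_antisymm
  · intro p hp
    have h : (Ideal.Quotient.mkₐ O (Ideal.span {(X j : MvPolynomial σ O)})).comp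
        ((rename Subtype.val).comp (kill O j)) =
        Ideal.Quotient.mkₐ O (Ideal.span {(X j : MvPolynomial σ O)}) := by
      ext i : 1
      by_cases hi : i = j
      · subst hi
        rw [AlgHom.comp_apply, AlgHom.comp_apply, kill_X_self, map_zero, map_zero,
          Ideal.Quotient.mkₐ_eq_mk]
        exact (Ideal.Quotient.eq_zero_iff_mem.2 (Ideal.mem_span_singleton_self _)).symm
      · rw [AlgHom.comp_apply, AlgHom.comp_apply, kill_X O j ⟨i, hi⟩, rename_X]
    have h1 := congr($h p)
    rw [AlgHom.comp_apply, AlgHom.comp_apply, (show kill O j p = 0 from hp), map_zero, map_zero,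
      Ideal.Quotient.mkₐ_eq_mk] at h1
    exact Ideal.Quotient.eq_zero_iff_mem.1 h1.symm
  · rw [Ideal.span_le, Set.singleton_subset_iff]
    exact kill_X_self O j

/-- `O[X_σ] / (X_j) ≃ O[X_i, i ≠ j]` -/
noncomputable def quotEquiv :
    (MvPolynomial σ O ⧸ Ideal.span {(X j : MvPolynomial σ O)}) ≃+*
      MvPolynomial {i : σ // i ≠ j} O :=
  (Ideal.quotEquivOfEq (ker_kill O j).symm).trans
    (RingHom.quotientKerEquivOfSurjective (f := (kill O j).toRingHom) (kill_surjective O j))

theorem isDomain_quot [IsDomain O] :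
    IsDomain (MvPolynomial σ O ⧸ Ideal.span {(X j : MvPolynomial σ O)}) :=
  (quotEquiv O j).toMulEquiv.isDomain _

theorem isIntegrallyClosed_quot [IsDomain O] [IsIntegrallyClosed O] :
    IsIntegrallyClosed (MvPolynomial σ O ⧸ Ideal.span {(X j : MvPolynomial σ O)}) := by
  have := Groth.Agent.Desc.NormalSmooth.isIntegrallyClosed_mvPolynomial (A := O) {i : σ // i ≠ j}
  exact IsIntegrallyClosed.of_equiv (quotEquiv O j).symm

theorem eq_zero_of_C_mem [Nontrivial O] (a : O)
    (h : (C a : MvPolynomial σ O) ∈ Ideal.span {(X j : MvPolynomial σ O)}) : a = 0 := by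
  rw [← ker_kill, RingHom.mem_ker] at h
  have h1 : kill O j (C a) = C a := by
    rw [← algebraMap_eq, AlgHom.commutes, algebraMap_eq]
  rw [h1] at h
  exact (C_injective _ O) (h.trans C_0.symm)

end Poly

section DVR

theorem exists_unit_mul_pow {E : Type u} [CommRing E] [IsLocalRing E] [IsNoetherianRing E]
    {t : E} (ht : maximalIdeal E = Ideal.span {t}) {x : E} (hx : x ≠ 0) :
    ∃ (n : ℕ) (c : E), IsUnit c ∧ x = c * t ^ n := by
  have h : ∃ n, x ∉ maximalIdeal E ^ n := by
    by_contra! hcon
    have h1 : x ∈ (⨅ i, maximalIdeal E ^ i : Ideal E) := by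
      rw [Submodule.mem_iInf]
      exact hcon
    rw [Ideal.iInf_pow_eq_bot_of_isLocalRing _ (Ideal.IsPrime.ne_top inferInstance)] at h1
    exact hx h1
  classical
  obtain ⟨n, hn⟩ : ∃ n, Nat.find h = n + 1 := by
    cases hd : Nat.find h with
    | zero =>
      exfalso
      have := Nat.find_spec h
      rw [hd, pow_zero] at this
      exact this (by rw [Ideal.one_eq_top]; exact Submodule.mem_top)
    | succ n => exact ⟨n, rfl⟩
  have h1 : x ∈ maximalIdeal E ^ n := by
    have := Nat.find_min h (m := n) (by omega)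
    exact not_not.1 this
  have h2 : x ∉ maximalIdeal E ^ (n + 1) := hn ▸ Nat.find_spec h
  rw [ht, Ideal.span_singleton_pow, Ideal.mem_span_singleton'] at h1
  obtain ⟨c, rfl⟩ := h1
  refine ⟨n, c, ?_, rfl⟩
  by_contra hc
  apply h2
  have h3 : c ∈ maximalIdeal E := hc
  rw [ht, Ideal.mem_span_singleton'] at h3
  obtain ⟨d, rfl⟩ := h3
  rw [ht, Ideal.span_singleton_pow, Ideal.mem_span_singleton']
  exact ⟨d, by ring⟩

/-- A local domain which is ind-étale over a Noetherian ring and whose maximal ideal is generated by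
a nonzero element of the base is a discrete valuation ring. -/
theorem isDiscreteValuationRing_of_laz {V B : Type u} [CommRing V] [IsNoetherianRing V]
    [CommRing B] [IsLocalRing B] [IsDomain B] [Algebra V B] (h : Laz V B) (t : V)
    (ht : maximalIdeal B = Ideal.span {algebraMap V B t}) (ht0 : algebraMap V B t ≠ 0) :
    IsDiscreteValuationRing B ∧ Irreducible (algebraMap V B t) := by
  have hirr := IsDiscreteValuationRing.irreducible_of_span_eq_maximalIdeal _ ht0 ht
  refine ⟨IsDiscreteValuationRing.ofHasUnitMulPowIrreducibleFactorization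
    ⟨algebraMap V B t, hirr, fun {x} hx => ?_⟩, hirr⟩
  obtain ⟨E, _, _, _, χ, e₀, he₀⟩ := h.exists_family (fun _ : Unit => x)
  obtain ⟨e, he⟩ : ∃ e, χ e = x := ⟨e₀ (), he₀ ()⟩
  let _ : Algebra E B := χ.toRingHom.toAlgebra
  have hVEB : IsScalarTower V E B := IsScalarTower.of_algebraMap_eq fun r => (χ.commutes r).symm
  have hflat : Module.Flat E B := (h.of_etale (E := E)).flat
  have hE : IsNoetherianRing E := Algebra.FiniteType.isNoetherianRing V E
  let q : Ideal E := (maximalIdeal B).comap (algebraMap E B)
  have hq : q.IsPrime := Ideal.comap_isPrime _ _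
  have hu : ∀ y : q.primeCompl, IsUnit (algebraMap E B y) := by
    intro y
    by_contra hy
    exact y.2 (show algebraMap E B y ∈ maximalIdeal B from hy)
  let E' := Localization.AtPrime q
  let _ : Algebra E' B := (IsLocalization.lift (M := q.primeCompl) (S := E') hu).toAlgebra
  have hEE'B : IsScalarTower E E' B := IsScalarTower.of_algebraMap_eq fun r =>
    (IsLocalization.lift_eq hu r).symm
  have hE' : IsNoetherianRing E' := IsLocalization.isNoetherianRing q.primeCompl E' hE
  have hflat' : Module.Flat E' B :=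
    (Module.flat_iff_of_isLocalization (S := E') (p := q.primeCompl) (M := B)).2 hflat
  have hcu : Ideal.under E ((maximalIdeal B).comap (algebraMap E' B)) = q := by
    change Ideal.comap (algebraMap E E') (Ideal.comap (algebraMap E' B) (maximalIdeal B)) =
      Ideal.comap (algebraMap E B) (maximalIdeal B)
    rw [Ideal.comap_comap, ← IsScalarTower.algebraMap_eq]
  have hcomap : (maximalIdeal B).comap (algebraMap E' B) = maximalIdeal E' := by
    rw [← IsLocalization.map_under q.primeCompl E' ((maximalIdeal B).comap (algebraMap E' B)), hcu]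
    exact IsLocalization.AtPrime.map_eq_maximalIdeal q E'
  have hloc : IsLocalHom (algebraMap E' B) :=
    ((IsLocalRing.local_hom_TFAE (algebraMap E' B)).out 0 4).2 hcomap
  have hff : Module.FaithfullyFlat E' B := Module.FaithfullyFlat.of_flat_of_isLocalHom
  have hVt : algebraMap E' B (algebraMap E E' (algebraMap V E t)) = algebraMap V B t := by
    rw [← IsScalarTower.algebraMap_apply, ← IsScalarTower.algebraMap_apply]
  have hmax : maximalIdeal E' = Ideal.span {algebraMap E E' (algebraMap V E t)} := by
    rw [← hcomap, ht, ← hVt, ← Set.image_singleton, ← Ideal.map_span,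
      Ideal.comap_map_eq_self_of_faithfullyFlat]
  have hx' : algebraMap E' B (algebraMap E E' e) = x := by
    rw [← IsScalarTower.algebraMap_apply]
    exact he
  have hx0 : algebraMap E E' e ≠ 0 := fun h0 => hx (by rw [← hx', h0, map_zero])
  obtain ⟨n, c, hc, hce⟩ := exists_unit_mul_pow hmax hx0
  refine ⟨n, ?_⟩
  rw [← hx', hce, map_mul, map_pow, hVt]
  obtain ⟨c', hc'⟩ := hc.map (algebraMap E' B)
  refine ⟨c', ?_⟩
  rw [hc', mul_comm]

end DVR

theorem normalChart : Groth.Agent.Pi1.H391.Stmts2.NormalChart.{u} := by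
  intro O R _ _ _ _ _ _ _ _ σ _ _ _ hL
  have hP : IsIntegrallyClosed (MvPolynomial σ O) :=
    Groth.Agent.Desc.NormalSmooth.isIntegrallyClosed_mvPolynomial σ
  have hdR : IsDomain R := Groth.Agent.Hensel.LazardPerm.LazardEtale.isDomain hL
  have hcR : IsIntegrallyClosed R := Groth.Agent.Hensel.LazardPerm.LazardEtale.isIntegrallyClosed hL
  refine ⟨hdR, hcR, ?_⟩
  intro j t ht htm
  let I : Ideal (MvPolynomial σ O) := Ideal.span {X j}
  have hI : I.map (algebraMap (MvPolynomial σ O) R) = Ideal.span {t} := by
    rw [Ideal.map_span, Set.image_singleton, ht]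
  have hne : I.map (algebraMap (MvPolynomial σ O) R) ≠ ⊤ := by
    rw [hI]
    exact fun h => (Ideal.IsPrime.ne_top (I := maximalIdeal R) inferInstance)
      (top_le_iff.1 (h ▸ (Ideal.span_singleton_le_iff_mem _).2 htm))
  have hLq : Laz (MvPolynomial σ O ⧸ I) (R ⧸ I.map (algebraMap (MvPolynomial σ O) R)) :=
    of_algEquiv (baseChange hL (MvPolynomial σ O ⧸ I))
      (Algebra.TensorProduct.quotIdealMapEquivQuotTensor R I).symm
  have hnt : Nontrivial (R ⧸ I.map (algebraMap (MvPolynomial σ O) R)) :=
    Ideal.Quotient.nontrivial_iff.2 hne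
  have hlq : IsLocalRing (R ⧸ I.map (algebraMap (MvPolynomial σ O) R)) :=
    IsLocalRing.of_surjective' _ Ideal.Quotient.mk_surjective
  have hdq : IsDomain (MvPolynomial σ O ⧸ I) := isDomain_quot O j
  have hcq : IsIntegrallyClosed (MvPolynomial σ O ⧸ I) := isIntegrallyClosed_quot O j
  have hdom : IsDomain (R ⧸ I.map (algebraMap (MvPolynomial σ O) R)) :=
    Groth.Agent.Hensel.LazardPerm.LazardEtale.isDomain hLq
  have hprime : (Ideal.span {t} : Ideal R).IsPrime := by
    rw [← hI]
    exact (Ideal.Quotient.isDomain_iff_prime _).1 hdom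
  have hcontr : ∀ p : MvPolynomial σ O, algebraMap (MvPolynomial σ O) R p ∈ Ideal.span {t} →
      p ∈ I := by
    intro p hp
    by_contra hpI
    have h1 : Ideal.Quotient.mk I p ≠ 0 := fun h => hpI (Ideal.Quotient.eq_zero_iff_mem.1 h)
    have hfl := hLq.flat
    have h2 : IsSMulRegular (R ⧸ I.map (algebraMap (MvPolynomial σ O) R)) (Ideal.Quotient.mk I p) :=
      Module.Flat.isSMulRegular_of_nonZeroDivisors (mem_nonZeroDivisors_of_ne_zero h1)
    have h3 : Ideal.Quotient.mk I p • (1 : R ⧸ I.map (algebraMap (MvPolynomial σ O) R)) = 0 := by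
      rw [Algebra.smul_def, mul_one]
      change Ideal.Quotient.mk _ (algebraMap (MvPolynomial σ O) R p) = 0
      rw [Ideal.Quotient.eq_zero_iff_mem, hI]
      exact hp
    exact one_ne_zero (h2 (h3.trans (smul_zero _).symm))
  have hO : ∀ a : O, algebraMap O R a ∈ Ideal.span {t} → a = 0 := by
    intro a ha
    refine eq_zero_of_C_mem O j a (hcontr _ ?_)
    rw [← algebraMap_eq, ← IsScalarTower.algebraMap_apply]
    exact ha
  refine ⟨hprime, hO, ?_⟩
  intro B _ _ _ _ _
  have hBloc : IsLocalRing B := IsLocalization.AtPrime.isLocalRing B (Ideal.span {t})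
  let K := FractionRing O
  let V := MvPolynomial σ K
  let _ : Algebra (MvPolynomial σ O) V := MvPolynomial.algebraMvPolynomial
  let _ : Algebra (MvPolynomial σ O) B :=
    ((algebraMap R B).comp (algebraMap (MvPolynomial σ O) R)).toAlgebra
  have hPRB : IsScalarTower (MvPolynomial σ O) R B := IsScalarTower.of_algebraMap_eq fun _ => rfl
  let M : Submonoid (MvPolynomial σ O) := (nonZeroDivisors O).map (C (σ := σ))
  have hMV : IsLocalization M V := MvPolynomial.isLocalization _ _
  have hu : ∀ y : M, IsUnit (algebraMap (MvPolynomial σ O) B y) := by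
    rintro ⟨_, a, ha, rfl⟩
    rw [IsScalarTower.algebraMap_apply (MvPolynomial σ O) R B]
    refine IsLocalization.map_units B (M := (Ideal.span {t}).primeCompl) ⟨_, ?_⟩
    intro h
    refine nonZeroDivisors.ne_zero ha (hO a ?_)
    have h1 : algebraMap (MvPolynomial σ O) R (C a) = algebraMap O R a := by
      rw [← algebraMap_eq, ← IsScalarTower.algebraMap_apply]
    rw [← h1]
    exact h
  let _ : Algebra V B := (IsLocalization.lift (M := M) (S := V) hu).toAlgebra
  have hPVB : IsScalarTower (MvPolynomial σ O) V B := IsScalarTower.of_algebraMap_eq fun r =>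
    (IsLocalization.lift_eq hu r).symm
  have hLB : Laz (MvPolynomial σ O) B :=
    comp_isLocalization (B := R) hL (Ideal.span {t} : Ideal R).primeCompl
  have hLVB : Laz V B := cancel (A := MvPolynomial σ O) (of_isLocalization M) hLB
  have hVt : algebraMap V B (X j) = algebraMap R B t := by
    have h1 : (X j : V) = algebraMap (MvPolynomial σ O) V (X j) := by
      change _ = MvPolynomial.map _ _
      rw [map_X]
    rw [h1, ← IsScalarTower.algebraMap_apply, IsScalarTower.algebraMap_apply (MvPolynomial σ O) R B,
      ht]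
  have hmax : maximalIdeal B = Ideal.span {algebraMap V B (X j)} := by
    rw [hVt, ← Set.image_singleton, ← Ideal.map_span]
    exact (IsLocalization.AtPrime.map_eq_maximalIdeal (Ideal.span {t}) B).symm
  have ht0 : t ≠ 0 := by
    have hfl := hL.flat
    have h2 : IsSMulRegular R (X j : MvPolynomial σ O) :=
      Module.Flat.isSMulRegular_of_nonZeroDivisors (mem_nonZeroDivisors_of_ne_zero (X_ne_zero j))
    intro h0
    have h3 : (X j : MvPolynomial σ O) • (1 : R) = 0 := by
      rw [Algebra.smul_def, mul_one, ht, h0]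
    exact one_ne_zero (h2 (h3.trans (smul_zero _).symm))
  have hinj : Function.Injective (algebraMap R B) :=
    IsLocalization.injective B (M := (Ideal.span {t} : Ideal R).primeCompl)
      (Ideal.primeCompl_le_nonZeroDivisors _)
  have hBt : algebraMap V B (X j) ≠ 0 := by
    rw [hVt]
    exact fun h => ht0 (hinj (h.trans (map_zero _).symm))
  obtain ⟨h1, h2⟩ := isDiscreteValuationRing_of_laz hLVB (X j : V) hmax hBt
  rw [hVt] at h2
  exact ⟨h1, h2⟩

end Groth.Agent.Pi1.H521.NormalChart
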